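import Cfsg.Agent.S4458

/-!
# S4933, vacuous rows (helper483): `NV p G` = `G` has a `p`-subgroup that is not metabelian

Inherited by overgroups, by extensions (sections); `NV p G` excludes `cd(P) = {1, p ^ a}`.
-/

set_option autoImplicit false

namespace Cfsg.Agent.H483.HT

open Cfsg Subgroup
open scoped commutatorElement Pointwise

/-- `G` has a `p`-subgroup which is not metabelian -/
def NV (p : ℕ) (G : Type*) [Group G] : Prop :=
  ∃ Q : Subgroup G, IsPGroup p Q ∧ ∃ x ∈ Q, ∃ y ∈ Q, ∃ z ∈ Q, ∃ w ∈ Q, ⁅⁅x, y⁆, ⁅z, w⁆⁆ ≠ 1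

/-- overgroups -/
theorem NV.of_injective {p : ℕ} {H G : Type*} [Group H] [Group G] (f : H →* G)
    (hf : Function.Injective f) (h : NV p H) : NV p G := by
  obtain ⟨Q, hQ, x, hx, y, hy, z, hz, w, hw, hne⟩ := h
  refine ⟨Q.map f, hQ.map f, f x, mem_map_of_mem f hx, f y, mem_map_of_mem f hy, f z,
    mem_map_of_mem f hz, f w, mem_map_of_mem f hw, fun h => hne (hf ?_)⟩
  rw [map_one, ← h]
  simp only [map_commutatorElement]

theorem NV.of_subgroup {p : ℕ} {G : Type*} [Group G] {H : Subgroup G} (h : NV p H) : NV p G :=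
  h.of_injective H.subtype H.subtype_injective

theorem NV.of_le {p : ℕ} {G : Type*} [Group G] {H K : Subgroup G} (hHK : H ≤ K) (h : NV p H) : NV p K :=
  h.of_injective (inclusion hHK) (inclusion_injective hHK)

theorem NV.congr {p : ℕ} {H G : Type*} [Group H] [Group G] (e : H ≃* G) (h : NV p H) : NV p G :=
  h.of_injective e.toMonoidHom e.injective

/-- extensions -/
theorem NV.of_surjective {p : ℕ} [hp : Fact p.Prime] {G K : Type*} [Group G] [Finite G] [Group K]
    (f : G →* K) (hf : Function.Surjective f) (h : NV p K) : NV p G := by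
  have : Finite K := Finite.of_surjective f hf
  obtain ⟨Q, hQ, x, hx, y, hy, z, hz, w, hw, hne⟩ := h
  obtain ⟨P', hP'⟩ := hQ.exists_le_sylow
  obtain ⟨P, rfl⟩ := Sylow.mapSurjective_surjective hf p P'
  have key : ∀ g : K, g ∈ Q → ∃ g' ∈ (P : Subgroup G), f g' = g := by
    intro g hg
    have := hP' hg
    rw [Sylow.coe_mapSurjective] at this
    exact mem_map.1 this
  obtain ⟨x', hx', rfl⟩ := key x hx
  obtain ⟨y', hy', rfl⟩ := key y hy
  obtain ⟨z', hz', rfl⟩ := key z hz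
  obtain ⟨w', hw', rfl⟩ := key w hw
  refine ⟨P, P.2, x', hx', y', hy', z', hz', w', hw', fun h => hne ?_⟩
  have h' := congrArg f h
  rw [map_one] at h'
  rw [← h']
  simp only [map_commutatorElement]

/-- quotients of subgroups -/
theorem NV.of_section {p : ℕ} [hp : Fact p.Prime] {G K : Type*} [Group G] [Finite G] [Group K]
    (H : Subgroup G) (f : H →* K) (hf : Function.Surjective f) (h : NV p K) : NV p G :=
  (h.of_surjective f hf).of_subgroup

/-- in a group with `NV p`, the Sylow `p`-subgroups are not metabelian -/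
theorem NV.sylow {p : ℕ} [hp : Fact p.Prime] {G : Type*} [Group G] [Finite G] (h : NV p G) (P : Sylow p G) :
    ∃ x ∈ P, ∃ y ∈ P, ∃ z ∈ P, ∃ w ∈ P, ⁅⁅x, y⁆, ⁅z, w⁆⁆ ≠ 1 := by
  obtain ⟨Q, hQ, x, hx, y, hy, z, hz, w, hw, hne⟩ := h
  obtain ⟨P', hP'⟩ := hQ.exists_le_sylow
  obtain ⟨g, hg⟩ := MulAction.exists_smul_eq G P' P
  have key : ∀ t : G, t ∈ Q → g * t * g⁻¹ ∈ P := by
    intro t ht
    have h1 : MulAut.conj g • t ∈ MulAut.conj g • (P' : Subgroup G) :=
      Subgroup.smul_mem_pointwise_smul t (MulAut.conj g) _ (hP' ht)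
    rw [← hg]
    exact h1
  refine ⟨_, key x hx, _, key y hy, _, key z hz, _, key w hw, fun h => hne ?_⟩
  have h2 : MulAut.conj g ⁅⁅x, y⁆, ⁅z, w⁆⁆ = 1 := by
    simp only [map_commutatorElement, MulAut.conj_apply]
    exact h
  exact (MulAut.conj g).injective (h2.trans (map_one _).symm)

/-- **`NV p G` excludes `cd(P) = {1, m}`** -/
theorem NV.vacuous {p : ℕ} [hp : Fact p.Prime] {G : Type*} [Group G] [Finite G] (h : NV p G) (P : Sylow p G)
    {m : ℕ} (hm : m ≠ 1)
    (hcd : ∀ φ : IrrCharacter ↥P, charDegree (φ : ↥P → ℂ) = 1 ∨ charDegree (φ : ↥P → ℂ) = m)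
    (hex : ∃ φ : IrrCharacter ↥P, charDegree (φ : ↥P → ℂ) = m) : False := by
  obtain ⟨x, hx, y, hy, z, hz, w, hw, hne⟩ := h.sylow P
  apply hne
  have hA := S4458.result (G := ↥P) m hcd hex hm
  have h1 := hA _ (commutator_mem_commutator (mem_top (⟨x, hx⟩ : ↥P)) (mem_top (⟨y, hy⟩ : ↥P))) _
    (commutator_mem_commutator (mem_top (⟨z, hz⟩ : ↥P)) (mem_top (⟨w, hw⟩ : ↥P)))
  exact commutatorElement_eq_one_iff_mul_comm.2 (congrArg Subtype.val h1)

/-- the form of the statement -/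
theorem NV.vacuous' {p : ℕ} [hp : Fact p.Prime] {G : Type*} [Group G] [Finite G] (h : NV p G) (P : Sylow p G)
    {a : ℕ} (ha : 0 < a)
    (hcd : ∀ φ : IrrCharacter ↥P, charDegree (φ : ↥P → ℂ) = 1 ∨ charDegree (φ : ↥P → ℂ) = p ^ a)
    (hex : ∃ φ : IrrCharacter ↥P, charDegree (φ : ↥P → ℂ) = p ^ a) : False :=
  h.vacuous P (Nat.one_lt_pow ha.ne' hp.out.one_lt).ne' hcd hex

end Cfsg.Agent.H483.HT
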